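import Mathlib
import Cfsg.Agent.H947.SqBasic
import Cfsg.Agent.S3867
import Cfsg.Agent.Lib.SubnormalJoin
import Cfsg.Agent.SolvableStructure.MinimalNormal
import Cfsg.Agent.SolvableStructure.Supersolvable

/-!
# Groups whose Sylow numbers are all square-free: reduction to simple groups (helper947, for S4289)

* `isSupersolvable` : a solvable group with `SqSy` is supersolvable;
* `simple_of_minimal` : a minimal normal perfect subgroup is simple;
* `exists_quasisimple` : a non-solvable group with `SqSy` has a perfect normal subgroup `L` with `L / Z(L)` simple.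
-/

set_option autoImplicit false
set_option linter.style.haveILetI false

namespace Cfsg.Agent.H947.Sq

open Subgroup Cfsg.Agent.H482.SylowNumbers
open scoped commutatorElement

/-- A solvable group with square-free Sylow numbers is supersolvable. -/
theorem isSupersolvable_aux : ∀ (n : ℕ) (G : Type*) [Group G] [Finite G] [Group.IsSolvable G],
    Nat.card G = n → SqSy G → IsSupersolvable G := by
  intro n
  induction n using Nat.strong_induction_on with
  | _ n ih =>
    intro G _ _ _ hn h
    rcases subsingleton_or_nontrivial G with hs | hnt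
    · exact Cfsg.Agent.SolvableStructure.Supersolvable.isSupersolvable_of_subsingleton
    obtain ⟨M, hMn, hM, hmin⟩ := Cfsg.Agent.Lib.SubnormalJoin.exists_minimal_normal G
    have hcomm := Cfsg.Agent.SolvableStructure.MinimalNormal.comm_of_minimal_normal M hM hmin
    obtain ⟨p, d, hp, hd, hcard, hexp⟩ :=
      Cfsg.Agent.SolvableStructure.MinimalNormal.exists_prime_of_minimal_normal M hM hmin
    have hMp : Nat.card M = p := card_of_minimal_normal h hp M hM hmin hcomm hexp
    haveI : Fact p.Prime := ⟨hp⟩
    have hcyc : IsCyclic M := isCyclic_of_prime_card hMp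
    have hlt : Nat.card (G ⧸ M) < n := by
      have h1 := Subgroup.card_eq_card_quotient_mul_card_subgroup M
      rw [hMp, hn] at h1
      have h2 : 0 < Nat.card (G ⧸ M) := Nat.card_pos
      have h3 := hp.two_le
      nlinarith
    exact Cfsg.Agent.SolvableStructure.Supersolvable.isSupersolvable_of_isCyclic_normal M
      (ih _ hlt (G ⧸ M) rfl (h.quotient M))

theorem SqSy.isSupersolvable {G : Type*} [Group G] [Finite G] [Group.IsSolvable G] (h : SqSy G) :
    IsSupersolvable G :=
  isSupersolvable_aux _ G rfl h

/-! ### Direct products -/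

/-- `n_r(N₂)` divides `n_r(P / N₁)` if `N₁ ∩ N₂ = 1`. -/
theorem card_sylow_dvd_quotient {P : Type*} [Group P] [Finite P] (N₁ N₂ : Subgroup P) [N₁.Normal] [h2 : N₂.Normal]
    (h : N₁ ⊓ N₂ = ⊥) (r : ℕ) [Fact r.Prime] : Nat.card (Sylow r N₂) ∣ Nat.card (Sylow r (P ⧸ N₁)) := by
  have hn : (N₂.map (QuotientGroup.mk' N₁)).Normal := h2.map _ (QuotientGroup.mk'_surjective N₁)
  have hinj : Function.Injective ((QuotientGroup.mk' N₁).comp N₂.subtype) := by
    rw [injective_iff_map_eq_one]
    intro x hx
    have h1 : (x : P) ∈ N₁ := (QuotientGroup.eq_one_iff _).1 hx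
    have h3 : (x : P) ∈ N₁ ⊓ N₂ := ⟨h1, x.2⟩
    rw [h, mem_bot] at h3
    exact Subtype.ext h3
  have hr : ((QuotientGroup.mk' N₁).comp N₂.subtype).range = N₂.map (QuotientGroup.mk' N₁) := by
    rw [MonoidHom.range_comp, range_subtype]
  have e : N₂ ≃* (N₂.map (QuotientGroup.mk' N₁) : Subgroup (P ⧸ N₁)) :=
    (MonoidHom.ofInjective hinj).trans (MulEquiv.subgroupCongr hr)
  rw [card_sylow_congr r e]
  exact card_sylow_normal_dvd r _

/-- two disjoint normal subgroups with the same number of Sylow `r`-subgroups -/
theorem card_sylow_eq_one_of_disjoint {M : Type*} [Group M] [Finite M] (hM : SqSy M) (A B : Subgroup M) [hA : A.Normal]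
    [hB : B.Normal] (hAne : A ≠ ⊥) (hBne : B ≠ ⊥) (h : A ⊓ B = ⊥) (r : ℕ) [hr : Fact r.Prime]
    (he : Nat.card (Sylow r A) = Nat.card (Sylow r B)) : Nat.card (Sylow r A) = 1 := by
  set P : Subgroup M := A ⊔ B with hP
  have hAP : A ≤ P := le_sup_left
  have hBP : B ≤ P := le_sup_right
  have hPs : SqSy P := hM.normal P
  set A' := A.subgroupOf P with hA'
  set B' := B.subgroupOf P with hB'
  have hA'n : A'.Normal := inferInstance
  have hB'n : B'.Normal := inferInstance
  have eA : A' ≃* A := Subgroup.subgroupOfEquivOfLe hAP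
  have eB : B' ≃* B := Subgroup.subgroupOfEquivOfLe hBP
  have hdis : A' ⊓ B' = ⊥ := by
    rw [eq_bot_iff]
    intro x hx
    have h1 : (x : M) ∈ A ⊓ B := ⟨mem_subgroupOf.1 (mem_inf.1 hx).1, mem_subgroupOf.1 (mem_inf.1 hx).2⟩
    rw [h, mem_bot] at h1
    rw [mem_bot]
    exact Subtype.ext h1
  have hsup : A' ⊔ B' = ⊤ := by
    rw [hA', hB', ← Subgroup.subgroupOf_sup hAP hBP, subgroupOf_self]
  have hne : ∀ (C : Subgroup M), C ≤ P → C ≠ ⊥ → C.subgroupOf P ≠ ⊥ := by
    intro C hC hC1 h1
    rw [subgroupOf_eq_bot] at h1
    exact hC1 ((h1.eq_bot_of_le hC))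
  have h1 := Cfsg.Agent.S3867.result r A' B' (hne A hAP hAne) (hne B hBP hBne) hdis
  have hone : Nat.card (Sylow r (P ⧸ (A' ⊔ B'))) = 1 := by
    haveI : Subsingleton (P ⧸ (A' ⊔ B')) := by
      rw [hsup]
      exact QuotientGroup.subsingleton_quotient_top
    haveI : Subsingleton (Sylow r (P ⧸ (A' ⊔ B'))) := ⟨fun S T => Sylow.ext (Subsingleton.elim _ _)⟩
    exact Nat.card_unique
  rw [hone, mul_one] at h1
  have h2 : Nat.card (Sylow r A) ∣ Nat.card (Sylow r (P ⧸ B')) := by
    rw [← card_sylow_congr r eA]
    exact card_sylow_dvd_quotient B' A' (by rw [inf_comm]; exact hdis) r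
  have h3 : Nat.card (Sylow r A) ∣ Nat.card (Sylow r (P ⧸ A')) := by
    rw [he, ← card_sylow_congr r eB]
    exact card_sylow_dvd_quotient A' B' hdis r
  have h4 : Nat.card (Sylow r A) * Nat.card (Sylow r A) ∣ Nat.card (Sylow r P) := by
    rw [h1]; exact mul_dvd_mul h3 h2
  exact Nat.isUnit_iff.1 (hPs r hr.out _ h4)

/-- a finite group all of whose Sylow numbers are one is nilpotent -/
theorem isNilpotent_of_card_sylow {S : Type*} [Group S] [Finite S]
    (h : ∀ (r : ℕ) [Fact r.Prime], Nat.card (Sylow r S) = 1) : Group.IsNilpotent S := by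
  refine (Group.isNilpotent_of_finite_tfae.out 0 3).2 ?_
  intro r hr P
  haveI := hr
  have h1 := h r
  rw [card_eq_index P, index_eq_one] at h1
  exact normalizer_eq_top_iff.1 h1

/-- **A perfect minimal normal subgroup of a group with square-free Sylow numbers is simple.** -/
theorem simple_of_minimal {D : Type*} [Group D] [Finite D] (hD : SqSy D) (M : Subgroup D) [hMn : M.Normal]
    (hM : M ≠ ⊥) (hmin : ∀ N : Subgroup D, N.Normal → N ≤ M → N = ⊥ ∨ N = M)
    (hna : ¬ ∀ a ∈ M, ∀ b ∈ M, a * b = b * a) : IsSimpleGroup M := by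
  classical
  haveI : Nontrivial M := (Subgroup.nontrivial_iff_ne_bot M).2 hM
  have hMs : SqSy M := hD.normal M
  -- subgroups of `M` invariant under `D`
  have hinv : ∀ N : Subgroup M, (∀ g : D, N.map (MulAut.conjNormal g : MulAut M).toMonoidHom ≤ N) → N = ⊥ ∨ N = ⊤ := by
    intro N hN
    have hn : (N.map M.subtype).Normal := by
      refine ⟨?_⟩
      rintro _ ⟨x, hx, rfl⟩ g
      refine ⟨(MulAut.conjNormal g : MulAut M) x, hN g ⟨x, hx, rfl⟩, ?_⟩
      exact MulAut.conjNormal_apply g x
    rcases hmin _ hn (map_subtype_le _) with h1 | h1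
    · left; exact (Subgroup.map_eq_bot_iff_of_injective N M.subtype_injective).1 h1
    · right
      apply Subgroup.map_injective M.subtype_injective
      rw [h1, ← MonoidHom.range_eq_map, range_subtype]
  have hcen : center M = ⊥ := by
    refine (hinv (center M) ?_).resolve_right ?_
    · intro g
      exact (Subgroup.characteristic_iff_map_le.1 inferInstance _)
    · intro h1
      apply hna
      intro a ha b hb
      have h2 : (⟨b, hb⟩ : M) ∈ center M := by rw [h1]; trivial
      exact congrArg Subtype.val (mem_center_iff.1 h2 ⟨a, ha⟩)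
  -- minimal normal subgroups of `M`
  have key : ∀ S : Subgroup M, S.Normal → S ≠ ⊥ → (∀ N : Subgroup M, N.Normal → N ≤ S → N = ⊥ ∨ N = S) → S = ⊤ := by
    intro S hSn hS hSmin
    by_contra htop
    have hgS : ∃ g : D, S.map (MulAut.conjNormal g : MulAut M).toMonoidHom ≠ S := by
      by_contra hcon
      push Not at hcon
      rcases hinv S (fun g => (hcon g).le) with h1 | h1
      · exact hS h1
      · exact htop h1
    have hdisj : ∀ g : D, S.map (MulAut.conjNormal g : MulAut M).toMonoidHom ≠ S →
        S ⊓ S.map (MulAut.conjNormal g : MulAut M).toMonoidHom = ⊥ := by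
      intro g hg
      have hn : (S.map (MulAut.conjNormal g : MulAut M).toMonoidHom).Normal :=
        hSn.map _ (MulAut.conjNormal g : MulAut M).surjective
      refine (hSmin _ inferInstance inf_le_left).resolve_right ?_
      intro h1
      apply hg
      have h2 : S ≤ S.map (MulAut.conjNormal g : MulAut M).toMonoidHom := inf_eq_left.1 h1
      symm
      apply Subgroup.eq_of_le_of_card_ge h2
      exact (Nat.card_congr (S.equivMapOfInjective (MulAut.conjNormal g : MulAut M).toMonoidHom
        (MulAut.conjNormal g : MulAut M).injective).toEquiv).symm.le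
    obtain ⟨g, hg⟩ := hgS
    have hnil : Group.IsNilpotent S := by
      apply isNilpotent_of_card_sylow
      intro r hr
      have hn : (S.map (MulAut.conjNormal g : MulAut M).toMonoidHom).Normal :=
        hSn.map _ (MulAut.conjNormal g : MulAut M).surjective
      refine card_sylow_eq_one_of_disjoint hMs S (S.map (MulAut.conjNormal g : MulAut M).toMonoidHom) hS ?_
        (hdisj g hg) r ?_
      · intro h1
        exact hS ((Subgroup.map_eq_bot_iff_of_injective S (MulAut.conjNormal g : MulAut M).injective).1 h1)
      · exact card_sylow_congr r (S.equivMapOfInjective _ (MulAut.conjNormal g : MulAut M).injective)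
    haveI : Nontrivial S := (Subgroup.nontrivial_iff_ne_bot S).2 hS
    have hSc : ∀ a ∈ S, ∀ b ∈ S, a * b = b * a := by
      have h1 : Nontrivial (center S) :=
        Cfsg.Agent.SolvableStructure.Supersolvable.nontrivial_center_of_isNilpotent S
      have hn : ((center S).map S.subtype).Normal := inferInstance
      rcases hSmin _ hn (map_subtype_le _) with h2 | h2
      · exact absurd ((Subgroup.map_eq_bot_iff_of_injective _ S.subtype_injective).1 h2)
          ((Subgroup.nontrivial_iff_ne_bot _).1 h1)
      · intro a ha b hb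
        rw [← h2] at hb
        obtain ⟨c, hc, rfl⟩ := hb
        exact congrArg Subtype.val (mem_center_iff.1 hc ⟨a, ha⟩)
    -- `S` is central
    have hSz : S ≤ center M := by
      intro x hx
      have h1 : (⨆ g : D, S.map (MulAut.conjNormal g : MulAut M).toMonoidHom) ≤ centralizer ({x} : Set M) := by
        apply iSup_le
        intro g y hy
        rw [mem_centralizer_singleton_iff]
        by_cases hgS : S.map (MulAut.conjNormal g : MulAut M).toMonoidHom = S
        · rw [hgS] at hy
          exact hSc y hy x hx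
        · have hn : (S.map (MulAut.conjNormal g : MulAut M).toMonoidHom).Normal :=
            hSn.map _ (MulAut.conjNormal g : MulAut M).surjective
          exact (Subgroup.commute_of_normal_of_disjoint S _ hSn hn (disjoint_iff.2 (hdisj g hgS)) x y hx hy).symm
      have h2 : (⨆ g : D, S.map (MulAut.conjNormal g : MulAut M).toMonoidHom) = ⊤ := by
        refine (hinv _ ?_).resolve_left ?_
        · intro g
          rw [Subgroup.map_iSup]
          apply iSup_le
          intro k
          rw [Subgroup.map_map]
          refine le_trans (le_of_eq ?_) (le_iSup _ (g * k))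
          congr 1
          ext y
          show (((MulAut.conjNormal g : MulAut M) ((MulAut.conjNormal k : MulAut M) y) : M) : D) =
            ((MulAut.conjNormal (g * k) : MulAut M) y : D)
          rw [map_mul]
          rfl
        · intro h3
          apply hS
          rw [eq_bot_iff, ← h3]
          refine le_trans (le_of_eq ?_) (le_iSup _ 1)
          rw [map_one]
          exact (Subgroup.map_id S).symm
      rw [h2] at h1
      rw [mem_center_iff]
      intro y
      exact mem_centralizer_singleton_iff.1 (h1 (mem_top y))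
    rw [hcen] at hSz
    exact hS (le_bot_iff.1 hSz)
  refine ⟨fun H hH => ?_⟩
  by_cases h : H = ⊥
  · exact Or.inl h
  · right
    obtain ⟨L, hL1, hL2, hL3, hL4⟩ := Cfsg.Agent.Lib.SubnormalJoin.exists_minimal_normal_le H hH h
    have := key L hL1 hL3 hL4
    rw [this] at hL2
    exact top_le_iff.1 hL2

/-! ### The perfect normal subgroup -/

/-- minimal normal subgroups below a solvable normal subgroup are abelian -/
theorem comm_of_le_solvable {Q : Type*} [Group Q] [Finite Q] (M : Subgroup Q) [M.Normal] (hM : M ≠ ⊥)
    (hs : Group.IsSolvable M) (hmin : ∀ N : Subgroup Q, N.Normal → N ≤ M → N = ⊥ ∨ N = M) :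
    ∀ a ∈ M, ∀ b ∈ M, a * b = b * a := by
  have h2 : ⁅M, M⁆ = ⊥ := by
    refine (hmin ⁅M, M⁆ inferInstance (commutator_le_left M M)).resolve_right ?_
    intro h1
    have h3 : commutator M = ⊤ := by
      apply Subgroup.map_injective M.subtype_injective
      rw [map_subtype_commutator, h1, ← MonoidHom.range_eq_map, range_subtype]
    haveI := hs
    haveI : Nontrivial M := (Subgroup.nontrivial_iff_ne_bot M).2 hM
    exact (Group.IsSolvable.commutator_lt_top_of_nontrivial M).ne h3
  intro a ha b hb
  have h3 : ⁅a, b⁆ ∈ ⁅M, M⁆ := commutator_mem_commutator ha hb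
  rw [h2, mem_bot, commutatorElement_eq_one_iff_mul_comm] at h3
  exact h3

/-- **A non-solvable group with square-free Sylow numbers has a perfect normal subgroup `L` whose quotient by
its centre is simple.** -/
theorem exists_quasisimple {G : Type*} [Group G] [Finite G] (hG : SqSy G) (hns : ¬ Group.IsSolvable G) :
    ∃ L : Subgroup G, L.Normal ∧ ⁅L, L⁆ = L ∧ L ≠ ⊥ ∧ IsSimpleGroup (L ⧸ center L) ∧ SqSy (L ⧸ center L) ∧
      ¬ IsMulCommutative (L ⧸ center L) := by
  classical
  -- a minimal non-solvable normal subgroup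
  obtain ⟨L, hL⟩ := (Set.toFinite {N : Subgroup G | N.Normal ∧ ¬ Group.IsSolvable N}).exists_minimal
    ⟨⊤, inferInstance, fun h => hns (Group.isSolvable_of_surjective (f := (⊤ : Subgroup G).subtype)
      (fun x => ⟨⟨x, mem_top x⟩, rfl⟩))⟩
  haveI hLn : L.Normal := hL.prop.1
  have hLs : ¬ Group.IsSolvable L := hL.prop.2
  have hsol : ∀ N : Subgroup G, N.Normal → N < L → Group.IsSolvable N := by
    intro N hN hNL
    by_contra hcon
    exact hNL.ne (le_antisymm hNL.le (hL.le_of_le ⟨hN, hcon⟩ hNL.le))
  have hL1 : L ≠ ⊥ := by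
    rintro rfl
    exact hLs inferInstance
  have hperf : ⁅L, L⁆ = L := by
    by_contra hne
    have h1 : ⁅L, L⁆ < L := lt_of_le_of_ne (commutator_le_left L L) hne
    have h2 := hsol _ inferInstance h1
    apply hLs
    have h3 : Group.IsSolvable (commutator L) := by
      have e : commutator L ≃* (⁅L, L⁆ : Subgroup G) := by
        refine ((commutator L).equivMapOfInjective L.subtype L.subtype_injective).trans
          (MulEquiv.subgroupCongr ?_)
        exact map_subtype_commutator L
      haveI := h2
      exact Group.isSolvable_of_isSolvable_injective (f := e.toMonoidHom) e.injective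
    haveI := h3
    have h4 : Group.IsSolvable (L ⧸ commutator L) := inferInstanceAs (Group.IsSolvable (Abelianization L))
    exact Group.isSolvable_of_ker_le_range (commutator L).subtype (QuotientGroup.mk' (commutator L))
      (by rw [QuotientGroup.ker_mk', range_subtype])
  -- the largest normal subgroup below `L`
  obtain ⟨Z, hZ⟩ := (Set.toFinite {N : Subgroup G | N.Normal ∧ N < L}).exists_maximal
    ⟨⊥, inferInstance, bot_lt_iff_ne_bot.2 hL1⟩
  haveI hZn : Z.Normal := hZ.prop.1
  have hZL : Z < L := hZ.prop.2
  have hZs : Group.IsSolvable Z := hsol Z hZn hZL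
  have hchief : ∀ N : Subgroup G, N.Normal → Z ≤ N → N ≤ L → N = Z ∨ N = L := by
    intro N hN hZN hNL
    by_cases h : N = L
    · exact Or.inr h
    · exact Or.inl (le_antisymm (hZ.le_of_ge ⟨hN, lt_of_le_of_ne hNL h⟩ hZN) hZN)
  -- `Z` is central
  have hcen : Z ≤ centralizer (L : Set G) := by
    by_contra hcon
    set C : Subgroup G := Z ⊓ centralizer (L : Set G) with hC
    haveI hCn : C.Normal := inferInstance
    have hCZ : C < Z := lt_of_le_of_ne inf_le_left (fun h => hcon (by rw [← h]; exact inf_le_right))
    set π := QuotientGroup.mk' C with hπ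
    have hπs : Function.Surjective π := QuotientGroup.mk'_surjective C
    have hZbar : Z.map π ≠ ⊥ := by
      intro h
      rw [Subgroup.map_eq_bot_iff, QuotientGroup.ker_mk'] at h
      exact hCZ.not_ge h
    obtain ⟨M, hMn, hMZ, hM1, hMmin⟩ :=
      Cfsg.Agent.Lib.SubnormalJoin.exists_minimal_normal_le (Z.map π) (hZn.map π hπs) hZbar
    haveI := hMn
    have hMs : Group.IsSolvable M := by
      haveI : Group.IsSolvable (Z.map π) := by
        haveI := hZs
        exact Group.isSolvable_of_surjective (f := π.subgroupMap Z) (MonoidHom.subgroupMap_surjective π Z)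
      exact Group.isSolvable_of_isSolvable_injective (f := Subgroup.inclusion hMZ) (Subgroup.inclusion_injective hMZ)
    have hMc := comm_of_le_solvable M hM1 hMs hMmin
    obtain ⟨s, hs, hexp⟩ :=
      Cfsg.Agent.SolvableStructure.MinimalNormal.exists_prime_pow_eq_one M hM1 hMmin hMc
    have hMcard := card_of_minimal_normal (hG.quotient C) hs M hM1 hMmin hMc hexp
    haveI : Fact s.Prime := ⟨hs⟩
    haveI : IsCyclic M := isCyclic_of_prime_card hMcard
    have hcomm := Cfsg.Agent.SolvableStructure.Supersolvable.commutator_le_centralizer_of_isCyclic M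
    have hLc : L.map π ≤ commutator (G ⧸ C) := by
      have h1 : L.map π = ⁅L.map π, L.map π⁆ := by rw [← Subgroup.map_commutator, hperf]
      rw [h1, _root_.commutator_def]
      exact commutator_mono le_top le_top
    -- `W = π⁻¹(M)`
    set W := M.comap π with hW
    haveI hWn : W.Normal := inferInstance
    have hCW : C ≤ W := by
      intro c hc
      rw [hW, mem_comap]
      have : π c = 1 := (QuotientGroup.eq_one_iff c).2 hc
      rw [this]; exact M.one_mem
    have hWZ : W ≤ Z := by
      intro w hw
      obtain ⟨z, hz, hzw⟩ := hMZ (show π w ∈ M from hw)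
      have h1 : z⁻¹ * w ∈ C := QuotientGroup.eq.1 hzw
      have h2 := Z.mul_mem hz (hCZ.le h1)
      rwa [mul_inv_cancel_left] at h2
    have hWL : ⁅W, L⁆ ≤ C := by
      rw [commutator_le]
      intro w hw l hl
      have h1 : π l ∈ centralizer (M : Set (G ⧸ C)) := hcomm (hLc ⟨l, hl, rfl⟩)
      have h2 := (mem_centralizer_iff.1 h1) (π w) hw
      have h3 : π ⁅w, l⁆ = 1 := by
        rw [map_commutatorElement, commutatorElement_eq_one_iff_mul_comm]
        exact h2
      exact (QuotientGroup.eq_one_iff _).1 h3
    have hCL : ⁅C, L⁆ = ⊥ := by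
      rw [commutator_eq_bot_iff_le_centralizer]
      exact inf_le_right
    have h1 : ⁅⁅W, L⁆, L⁆ = ⊥ := by
      rw [eq_bot_iff, ← hCL]
      exact commutator_mono hWL le_rfl
    have h2 : ⁅⁅L, W⁆, L⁆ = ⊥ := by rw [commutator_comm L W]; exact h1
    have h3 : ⁅⁅L, L⁆, W⁆ = ⊥ := commutator_commutator_eq_bot_of_rotate h2 h1
    rw [hperf, commutator_comm, commutator_eq_bot_iff_le_centralizer] at h3
    have h4 : W ≤ C := le_inf hWZ h3
    apply hM1
    rw [eq_bot_iff]
    intro m hm
    obtain ⟨w, rfl⟩ := hπs m
    rw [mem_bot]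
    exact (QuotientGroup.eq_one_iff w).2 (h4 hm)
  -- `Z` is the centre of `L`
  have hcenL : center L = Z.subgroupOf L := by
    have h1 : ((center L).map L.subtype).Normal := inferInstance
    have h2 : Z ≤ (center L).map L.subtype := by
      intro z hz
      refine ⟨⟨z, hZL.le hz⟩, ?_, rfl⟩
      show _ ∈ center L
      rw [mem_center_iff]
      intro l
      exact Subtype.ext ((mem_centralizer_iff.1 (hcen hz)) l l.2)
    rcases hchief _ h1 h2 (map_subtype_le _) with h3 | h3
    · rw [← h3]
      ext x
      rw [mem_subgroupOf]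
      constructor
      · intro hx; exact ⟨x, hx, rfl⟩
      · rintro ⟨y, hy, hyx⟩
        have : y = x := Subtype.ext hyx
        rw [← this]; exact hy
    · exfalso
      apply hLs
      have h4 : center L = ⊤ := by
        apply Subgroup.map_injective L.subtype_injective
        rw [h3, ← MonoidHom.range_eq_map, range_subtype]
      exact Group.isSolvable_of_comm (fun a b => by
        have : b ∈ center L := by rw [h4]; trivial
        exact (mem_center_iff.1 this) a)
  set π := QuotientGroup.mk' Z with hπ
  have hπs : Function.Surjective π := QuotientGroup.mk'_surjective Z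
  set M := L.map π with hM
  haveI hMn : M.Normal := hLn.map π hπs
  have hM1 : M ≠ ⊥ := by
    intro h
    rw [hM, Subgroup.map_eq_bot_iff, QuotientGroup.ker_mk'] at h
    exact hZL.not_ge h
  have hMmin : ∀ N : Subgroup (G ⧸ Z), N.Normal → N ≤ M → N = ⊥ ∨ N = M := by
    intro N hN hNM
    have h1 : Z ≤ N.comap π := by
      intro z hz
      rw [mem_comap]
      have : π z = 1 := (QuotientGroup.eq_one_iff z).2 hz
      rw [this]; exact N.one_mem
    have h2 : N.comap π ≤ L := by
      intro x hx
      obtain ⟨l, hl, hlx⟩ := hNM (show π x ∈ N from hx)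
      have h3 : l⁻¹ * x ∈ Z := QuotientGroup.eq.1 hlx
      have h4 := L.mul_mem hl (hZL.le h3)
      rwa [mul_inv_cancel_left] at h4
    have h5 : (N.comap π).map π = N := map_comap_eq_self_of_surjective hπs N
    rcases hchief _ (hN.comap π) h1 h2 with h3 | h3
    · left
      rw [← h5, h3, Subgroup.map_eq_bot_iff, QuotientGroup.ker_mk']
    · right
      rw [← h5, h3]
  have hMp : ⁅M, M⁆ = M := by rw [hM, ← Subgroup.map_commutator, hperf]
  have hMna : ¬ ∀ a ∈ M, ∀ b ∈ M, a * b = b * a := by
    intro h
    apply hM1
    rw [← hMp, commutator_eq_bot_iff_le_centralizer]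
    intro a ha
    rw [mem_centralizer_iff]
    intro b hb
    exact h b hb a ha
  have hsimp := simple_of_minimal (hG.quotient Z) M hM1 hMmin hMna
  have hMsq : SqSy M := (hG.quotient Z).normal M
  -- `L / Z(L) ≃ M`
  have e : (L ⧸ center L) ≃* M := by
    have h1 : (π.subgroupMap L).ker = center L := by
      rw [hcenL, Subgroup.ker_subgroupMap, QuotientGroup.ker_mk']
    exact (QuotientGroup.quotientMulEquivOfEq h1.symm).trans
      (QuotientGroup.quotientKerEquivOfSurjective _ (MonoidHom.subgroupMap_surjective π L))
  refine ⟨L, hLn, hperf, hL1, ?_, hMsq.congr e.symm, ?_⟩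
  · haveI := hsimp
    haveI : Nontrivial (L ⧸ center L) := e.toEquiv.nontrivial
    exact IsSimpleGroup.isSimpleGroup_of_surjective e.symm.toMonoidHom e.symm.surjective
  · intro hcomm
    apply hMna
    intro a ha b hb
    have h1 := hcomm.is_comm.comm (e.symm ⟨a, ha⟩) (e.symm ⟨b, hb⟩)
    rw [← map_mul, ← map_mul] at h1
    exact congrArg Subtype.val (e.symm.injective h1)

end Cfsg.Agent.H947.Sq
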